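import Cfsg.Agent.H928.TC.TwBig
import Cfsg.Agent.H928.Ore.TwFin

/-!
`²E₆(q)`, `q ≥ 4`: every nonidentity element is in `C C⁻¹` for a fixed class `C` (S4173).
-/

set_option autoImplicit false
set_option linter.unusedSectionVars false

namespace Cfsg.Agent.H928.TC.TwGe

open CoxeterSystem Cfsg.Agent.ChevalleyStructure.CoxeterGeom Cfsg.Agent.Tits.Roots Cfsg.Agent.Tits.Core
  Cfsg.Agent.Nodes Cfsg.Agent.Nodes.Reps Cfsg.Agent.Nodes.BNOf Cfsg.Agent.Nodes.RGDLib Cfsg.Agent.Nodes.Bruhat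
  Cfsg.Agent.Nodes.OppDec Cfsg.Agent.Nodes.LeviDec Cfsg.Agent.Nodes.StabComb Cfsg.Agent.Nodes.KindChev
  Cfsg.Agent.Nodes.ChevCls
  Cfsg.Agent.OddHalf.NI.ModelChev
  Cfsg.Agent.H162.GaussDec Cfsg.Agent.H162.GaussLevi Cfsg.Agent.H162.GaussSL Cfsg.Agent.H162.GaussReg
  Cfsg.Agent.H928.Ore.Frame Cfsg.Agent.H928.Ore.Fix Cfsg.Agent.H928.Ore.Block Cfsg.Agent.H928.Ore.TwE
  Cfsg.Agent.H928.Ore.TwS Cfsg.Agent.H928.Ore.TwF Cfsg.Agent.H928.Ore.TwN Cfsg.Agent.H928.TC.TwBig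
open Cfsg.Lie Cfsg.Agent.ChevalleyStructure Cfsg.Agent.ChevalleyStructure.Elts
  Cfsg.Agent.ChevalleyStructure.NPerm
  Cfsg.Agent.ChevalleyStructure.CoxeterGeomTypes Cfsg.Agent.Nodes.RGDChev Cfsg.Agent.KFacts.RgdChevCoord
open Cfsg.Agent.Nodes.RGDTwGen Cfsg.Agent.Nodes.RGDFold Cfsg.Agent.Nodes.RGDTwE6
open Cfsg.Agent.Nodes.RGDFoldSL (Fx mem_Fx)
open Cfsg.Agent.H162.GaussExcMain (r6 rt6 exists_hom_D w6)
open Cfsg.Agent.H194.Ore (exists_diag)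
open Polynomial (C Monic)
open scoped MatrixGroups

universe u

section

variable {K : Type u} [Field K]

/-- conjugate over `K` to `diag(1, β, β⁻¹)` -/
theorem exists_Q {φ : K →+* K} {β : Kˣ} (hb : (β : K) ≠ 1) (hb2 : (β : K) * β ≠ 1) {τ : Fx φ 1}
    (hτ : (τ : K) = β + (β : K)⁻¹) {X : Matrix.SpecialLinearGroup (Fin 3) (Fx φ 1)}
    (hX : (X : Matrix (Fin 3) (Fin 3) (Fx φ 1)).charpoly =
      (Polynomial.X - C 1) * (Polynomial.X ^ 2 - C τ * Polynomial.X + 1)) :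
    ∃ Q : Matrix.SpecialLinearGroup (Fin 3) K,
      Matrix.SpecialLinearGroup.map (Fx φ 1).subtype X = Q * dg3 1 β * Q⁻¹ := by
  have h0 : (β : K) ≠ 0 := β.ne_zero
  have hbu : β ≠ 1 := fun h => hb (by rw [h, Units.val_one])
  have hbb : (β : K) ≠ (β : K)⁻¹ := fun h => hb2 (by
    nth_rewrite 2 [h]
    exact mul_inv_cancel₀ h0)
  set M : Matrix (Fin 3) (Fin 3) K := (X : Matrix (Fin 3) (Fin 3) (Fx φ 1)).map (Fx φ 1).subtype with hM
  have h1 : M.charpoly = ∏ i, (Polynomial.X - C ((![1, (β : K), (β : K)⁻¹] : Fin 3 → K) i)) := by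
    have h2 : M.charpoly = (X : Matrix (Fin 3) (Fin 3) (Fx φ 1)).charpoly.map (Fx φ 1).subtype := Matrix.charpoly_map _ _
    rw [h2, hX, Fin.prod_univ_three]
    simp only [Polynomial.map_mul, Polynomial.map_sub, Polynomial.map_add, Polynomial.map_pow, Polynomial.map_X,
      Polynomial.map_C, Polynomial.map_one, Matrix.cons_val_zero, Matrix.cons_val_one, Matrix.cons_val]
    have h3 : (Fx φ 1).subtype τ = (β : K) + (β : K)⁻¹ := hτ
    rw [h3, map_one, mul_assoc]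
    congr 1
    rw [C.map_add]
    have h4 : (C (β : K) * C ((β : K)⁻¹) : Polynomial K) = 1 := by
      rw [← C.map_mul, mul_inv_cancel₀ h0, C.map_one]
    linear_combination -h4
  have hinj : Function.Injective (![1, (β : K), (β : K)⁻¹] : Fin 3 → K) := by
    intro i j hij
    fin_cases i <;> fin_cases j <;> simp at hij ⊢
    · exact hb hij.symm
    · exact hbu hij
    · exact hbu (by simpa using hij)
    · exact hbb hij
    · exact hbu hij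
    · exact hbb hij.symm
  obtain ⟨Q, hQ⟩ := exists_diag hinj h1 (by norm_num)
  refine ⟨Q, ?_⟩
  rw [eq_mul_inv_iff_mul_eq]
  apply Subtype.ext
  change M * (Q : Matrix (Fin 3) (Fin 3) K) = (Q : Matrix (Fin 3) (Fin 3) K) *
    Matrix.diagonal ![((1 : Kˣ) : K), (((1 : Kˣ)⁻¹ * β : Kˣ) : K), ((β⁻¹ : Kˣ) : K)]
  rw [hQ]
  congr 2
  simp

variable [Fintype K] {φ : K →+* K} {q : ℕ} (hφ : ∀ t, φ t = t ^ q)
  (hqq : ∀ t : K, (t ^ q) ^ q = t)
  {P : Matrix.SpecialLinearGroup (Fin 3) K →* ↥(chevE6.group K)}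
  (hP : ∀ a b (hab : a ≠ b) c, P (Matrix.SpecialLinearGroup.transvection hab c) =
      xc RGDTwE6.hp (vec chevE6 6 (r6 a b)) (((1 : ℤ) : K) * c))
  {f : Matrix.SpecialLinearGroup (Fin 3) (Fx φ 1) →* ↥(twistedE6 K q)}
  (hf : ∀ A, inc K q (f A) = P (Matrix.SpecialLinearGroup.map (Fx φ 1).subtype A))
  {u w β : Kˣ} (h : Nm q u w β)
  {s : ↥(twistedE6 K q)} (hs : inc K q s = th RGDTwE6.hp (sv u w))

include hP hf hs

theorem s_comm (A : Matrix.SpecialLinearGroup (Fin 3) (Fx φ 1)) : s * f A = f A * s := by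
  apply inc_injective q
  rw [map_mul, map_mul, hs, hf]
  refine comm_phi RGDTwE6.hp rt6.1 hP ((thT RGDTwE6.hp (sv u w)).2) (fun a b hab => ?_) _
  change ch RGDTwE6.hp (vec chevE6 6 (r6 a b)) (th RGDTwE6.hp (sv u w)) = 1
  rw [ch_th RGDTwE6.hp (rt6.1 a b hab), prod_sv, (tab_in a b hab).1, (tab_in a b hab).2, zpow_zero, zpow_zero, mul_one,
    Units.val_one]

omit hP hf in
theorem s_T : s ∈ T K q := by
  refine Subgroup.mem_subgroupOf.2 ⟨?_, s.2⟩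
  have h4 : th RGDTwE6.hp (sv u w) ∈ TT chevE6 K := (thT RGDTwE6.hp (sv u w)).2
  have h3 := Subgroup.mem_subgroupOf.1 h4
  rw [← hs] at h3
  exact h3

include h

theorem s_nf {W : Type*} [Group W] (cs : CoxeterSystem CoxeterMatrix.F₄ W)
    {X : Matrix.SpecialLinearGroup (Fin 3) (Fx φ 1)} {Q : Matrix.SpecialLinearGroup (Fin 3) K}
    (hX : Matrix.SpecialLinearGroup.map (Fx φ 1).subtype X = Q * dg3 1 β * Q⁻¹) :
    NF (VJ cs RGDTwE6.isCartan (RGDTwE6.X φ q) JR) (s * f X) ∧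
      NF (VNJ cs RGDTwE6.isCartan (RGDTwE6.X φ q) JR) (s * f X) := by
  obtain ⟨g1, g2⟩ := nfB hP h hX
  have e2 : inc K q (s * f X) = th RGDTwE6.hp (sv u w) * P (Matrix.SpecialLinearGroup.map (Fx φ 1).subtype X) := by
    rw [map_mul, hs, hf]
  rw [← e2] at g1 g2
  exact ⟨NF.of_hom _ (inc_injective q) (VJ_le cs φ q) g1, NF.of_hom _ (inc_injective q) (VNJ_le cs φ q) g2⟩

end

/-- **The row `²E₆(q)`, `q ≥ 4`.** -/
theorem row_ge {K : Type u} [Field K] [Fintype K] {q : ℕ} (hq : IsPrimePow q) (hK : Fintype.card K = q ^ 2)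
    (h4 : 4 ≤ q) : ∃ a : ↥(twistedE6 K q), ∀ g : ↥(twistedE6 K q), g ≠ 1 → ∃ x y : ↥(twistedE6 K q),
      g = (x * a * x⁻¹) * (y * a⁻¹ * y⁻¹) := by
  obtain ⟨φ, hφ, hqq⟩ := TwE6Basic.exists_frob hq hK
  obtain ⟨p, hpc⟩ := CharP.exists K
  have : Fact p.Prime := ⟨(CharP.char_is_prime_or_zero K p).resolve_right (CharP.char_ne_zero_of_finite K p)⟩
  have hfin : Finite (GL chevE6.Idx K) := by
    have : Finite (Matrix chevE6.Idx chevE6.Idx K) := inferInstance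
    infer_instance
  have : Finite ↥(twistedE6 K q) := inferInstance
  have R := RGDTwE6.rgd CoxeterMatrix.F₄.toCoxeterSystem hφ hqq p
  have : Finite CoxeterMatrix.F₄.Group := Cfsg.Agent.Nodes.RGDFold.finite_W (hp := RGDTwE6.hp)
    CoxeterMatrix.F₄.toCoxeterSystem RGDTwE6.isCartan RGDTwE6.foldData
  have hS := Cfsg.Agent.S1070.result hq hK
  have := hS.1
  obtain ⟨P, hP⟩ := exists_hom_D RGDTwE6.hp (K := K) (ε := 1) (by norm_num) rt6.1 rt6.2.1 rt6.2.2.1 rt6.2.2.2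
  obtain ⟨f, hf⟩ := exists_f hφ hqq hP
  obtain ⟨u, w, β, h⟩ := exists_nm h4 hK
  have hu : φ u = w := by
    rw [hφ]
    exact congrArg Units.val h.hu
  have hw : φ w = u := by
    rw [hφ]
    exact congrArg Units.val h.hw
  obtain ⟨s, hs⟩ := exists_inc hφ hqq (sgY_sv hu hw)
  -- the element of `SL₃`
  have hb2 : (β : K) * β ≠ 1 := by
    intro h5
    apply h.b2
    rw [pow_two]
    exact Units.ext h5
  have hb1 : (β : K) ≠ 1 := fun h5 => hb2 (by rw [h5, mul_one])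
  have hβq : (β : K) ^ q = (β : K)⁻¹ := by
    have h5 := congrArg Units.val h.b1
    rw [Units.val_pow_eq_pow_val, Units.val_one, pow_succ] at h5
    exact eq_inv_of_mul_eq_one_left h5
  have hτ0 : φ ((β : K) + (β : K)⁻¹) = (β : K) + (β : K)⁻¹ := by
    rw [map_add, map_inv₀, hφ, hβq, inv_inv, add_comm]
  let τ : Fx φ 1 := ⟨(β : K) + (β : K)⁻¹, mem_Fx.2 hτ0⟩
  have hpm : (Polynomial.X ^ 2 - C τ * Polynomial.X + 1 : Polynomial (Fx φ 1)).Monic := by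
    rw [show (Polynomial.X ^ 2 - C τ * Polynomial.X + 1 : Polynomial (Fx φ 1)) =
      Polynomial.X ^ 2 + (- C τ * Polynomial.X + 1) by ring]
    refine Polynomial.monic_X_pow_add ?_
    compute_degree!
  have hpd : (Polynomial.X ^ 2 - C τ * Polynomial.X + 1 : Polynomial (Fx φ 1)).natDegree = 2 := by
    compute_degree!
  have hcF : 3 ≤ Nat.card (Fx φ 1) := by
    rw [Cfsg.Agent.H928.Ore.TwFin.card_Fx hq.one_lt hK hφ]
    omega
  obtain ⟨c₀, hc0, -, hc⟩ := Cfsg.Agent.H150.MF.mf_poly hcF (n := 3) (by norm_num) (ν := (1 : Fx φ 1)) hpm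
    (by rw [hpd]) (by simp [Polynomial.mul_coeff_zero]; norm_num) (by
      simp only [Polynomial.eval_add, Polynomial.eval_sub, Polynomial.eval_pow, Polynomial.eval_X, Polynomial.eval_mul,
        Polynomial.eval_C, Polynomial.eval_one]
      intro h5
      have h6 := congrArg (Fx φ 1).subtype h5
      rw [map_zero, map_add, map_sub, map_mul, map_pow, map_one, mul_one] at h6
      change (1 : K) ^ 2 - ((β : K) + (β : K)⁻¹) + 1 = 0 at h6
      have h0 : (β : K) ≠ 0 := β.ne_zero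
      have h7 : ((β : K) - 1) * (β - 1) = 0 := by
        have h8 : (β : K) * (β : K)⁻¹ = 1 := mul_inv_cancel₀ h0
        linear_combination (-(β : K)) * h6 - h8
      rcases mul_eq_zero.1 h7 with h8 | h8 <;> exact hb1 (sub_eq_zero.1 h8))
  obtain ⟨Q, hQ⟩ := exists_Q hb1 hb2 (τ := τ) rfl hc0
  have hsf := s_comm (φ := φ) hP hf hs
  have hsT : s ∈ LJ CoxeterMatrix.F₄.toCoxeterSystem RGDTwE6.isCartan (T K q) (RGDTwE6.X φ q) JR :=
    T_le_LJ (s_T hs)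
  have hconj : ∀ g : Matrix.SpecialLinearGroup (Fin 3) (Fx φ 1),
      NF (VJ CoxeterMatrix.F₄.toCoxeterSystem RGDTwE6.isCartan (RGDTwE6.X φ q) JR) (s * f (g * c₀ * g⁻¹)) ∧
      NF (VNJ CoxeterMatrix.F₄.toCoxeterSystem RGDTwE6.isCartan (RGDTwE6.X φ q) JR) (s * f (g * c₀ * g⁻¹)) := by
    intro g
    refine s_nf hP hf h hs _ (Q := Matrix.SpecialLinearGroup.map (Fx φ 1).subtype g * Q) ?_
    rw [map_mul, map_mul, hQ, map_inv]
    group
  -- the pairs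
  have hb : ∀ v ∈ UNJ CoxeterMatrix.F₄.toCoxeterSystem RGDTwE6.isCartan (RGDTwE6.X φ q) JR,
      ∀ u ∈ UJ CoxeterMatrix.F₄.toCoxeterSystem RGDTwE6.isCartan (RGDTwE6.X φ q) JR, ∃ c₁ c₂, v * u = c₁ * c₂ ∧
        LP CoxeterMatrix.F₄.toCoxeterSystem RGDTwE6.isCartan (T K q) (RGDTwE6.X φ q) JR c₁ c₂ ∧
        ((∃ y, c₁ = y * (s * f c₀) * y⁻¹) ∧ ∃ y, c₂ = y * (s * f c₀)⁻¹ * y⁻¹) := by
    intro v hv u hu
    obtain ⟨L, hL, rfl⟩ := lo_f hφ hqq hP hf _ hv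
    obtain ⟨U, hU, rfl⟩ := up_f hφ hqq hP hf _ hu
    obtain ⟨g, k, hgk⟩ := hc L hL U hU
    have e1 : s * f (g * c₀ * g⁻¹) = f g * (s * f c₀) * (f g)⁻¹ := by
      rw [map_mul, map_mul, map_inv]
      calc s * (f g * f c₀ * (f g)⁻¹) = (s * f g) * f c₀ * (f g)⁻¹ := by group
        _ = _ := by rw [hsf]; group
    have e2 : s⁻¹ * f (k * c₀⁻¹ * k⁻¹) = (s * f (k * c₀ * k⁻¹))⁻¹ := by
      rw [hsf, mul_inv_rev, ← map_inv]
      congr 2
      group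
    have e3 : s * f (k * c₀ * k⁻¹) = f k * (s * f c₀) * (f k)⁻¹ := by
      rw [map_mul, map_mul, map_inv]
      calc s * (f k * f c₀ * (f k)⁻¹) = (s * f k) * f c₀ * (f k)⁻¹ := by group
        _ = _ := by rw [hsf]; group
    refine ⟨s * f (g * c₀ * g⁻¹), s⁻¹ * f (k * c₀⁻¹ * k⁻¹), ?_,
      ⟨mul_mem hsT (f_LJ hφ hqq hP hf _ _), mul_mem (inv_mem hsT) (f_LJ hφ hqq hP hf _ _), (hconj g).2, ?_⟩,
      ⟨f g, e1⟩, ⟨f k, ?_⟩⟩
    · rw [← map_mul, hgk, map_mul, hsf]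
      group
    · rw [e2]
      exact NF.inv (hconj k).1
    · rw [e2, e3]
      group
  refine ⟨s * f c₀, fun g hg => ?_⟩
  obtain ⟨c₁, c₂, x, y, ⟨⟨x', e1⟩, y', e2⟩, e3⟩ := pair R (RGDTwE6.G1_eq_top CoxeterMatrix.F₄.toCoxeterSystem hφ hqq)
    (Cfsg.Agent.H958.TS.TwCommon.coordP hφ hqq) (Cfsg.Agent.Nodes.ChevChart.irr_of Cfsg.Agent.Nodes.ChevChart.irrF)
    (Pr := fun c₁ c₂ => (∃ y, c₁ = y * (s * f c₀) * y⁻¹) ∧ ∃ y, c₂ = y * (s * f c₀)⁻¹ * y⁻¹) hb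
    (Cfsg.Agent.H928.War.Rgd.core_trivial R hg)
  refine ⟨x * x', y * y', ?_⟩
  rw [e3, e1, e2]
  group

end Cfsg.Agent.H928.TC.TwGe
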