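import Cfsg.Agent.H928.TC.TwSmall
import Cfsg.Agent.H928.TC.TwGe

/-!
**The row `²E₆(q)` of S4173**: two fixed conjugacy classes whose product contains every nonidentity element.
-/

set_option autoImplicit false

namespace Cfsg.Agent.H928.TC.Row

open Cfsg.Lie

universe u

/-- **The row `²E₆(q)` of S4173** (`H140.TC.TC`). -/
theorem tc_2E6 {K : Type u} [Field K] [Fintype K] {q : ℕ} (hq : IsPrimePow q) (hK : Fintype.card K = q ^ 2) :
    ∃ a b : ↥(twistedE6 K q), ∀ g : ↥(twistedE6 K q), g ≠ 1 → ∃ x y : ↥(twistedE6 K q),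
      g = (x * a * x⁻¹) * (y * b * y⁻¹) := by
  by_cases h : q = 2 ∨ q = 3
  · exact Cfsg.Agent.H928.TC.TwSmall.row_small h hK
  · obtain ⟨a, ha⟩ := Cfsg.Agent.H928.TC.TwGe.row_ge hq hK (by have := hq.one_lt; omega)
    exact ⟨a, a⁻¹, ha⟩

end Cfsg.Agent.H928.TC.Row
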