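import Cfsg.Agent.H928.Ore.TwFin
import Cfsg.Agent.H928.War.Rgd
import Cfsg.Agent.H194.Ore.Diag

/-!
`²E₆(q)`, `q ≥ 4`: two fixed classes (S4173).

* `sv u w` : the semisimple elements of the centralizer of the block `{1, 3}` of `E₆(K)`;
* `nfB` : `s φ(X)`, `X` with eigenvalues `1, β, β⁻¹`, has no fixed points on the unipotent radicals of the block;
* `tc_big` : there is a class `C` such that every element is in `C C⁻¹`.
-/

set_option autoImplicit false
set_option linter.unusedSectionVars false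

namespace Cfsg.Agent.H928.TC.TwBig

open CoxeterSystem Cfsg.Agent.ChevalleyStructure.CoxeterGeom Cfsg.Agent.Tits.Roots Cfsg.Agent.Tits.Core
  Cfsg.Agent.Nodes Cfsg.Agent.Nodes.Reps Cfsg.Agent.Nodes.BNOf Cfsg.Agent.Nodes.RGDLib Cfsg.Agent.Nodes.Bruhat
  Cfsg.Agent.Nodes.OppDec Cfsg.Agent.Nodes.LeviDec Cfsg.Agent.Nodes.StabComb Cfsg.Agent.Nodes.KindChev
  Cfsg.Agent.Nodes.ChevCls
  Cfsg.Agent.OddHalf.NI.ModelChev
  Cfsg.Agent.H162.GaussDec Cfsg.Agent.H162.GaussLevi Cfsg.Agent.H162.GaussSL Cfsg.Agent.H162.GaussReg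
  Cfsg.Agent.H928.Ore.Frame Cfsg.Agent.H928.Ore.Fix Cfsg.Agent.H928.Ore.Block Cfsg.Agent.H928.Ore.TwE
  Cfsg.Agent.H928.Ore.TwS Cfsg.Agent.H928.Ore.TwF Cfsg.Agent.H928.Ore.TwN
open Cfsg.Lie Cfsg.Agent.ChevalleyStructure Cfsg.Agent.ChevalleyStructure.Elts
  Cfsg.Agent.ChevalleyStructure.NPerm
  Cfsg.Agent.ChevalleyStructure.CoxeterGeomTypes Cfsg.Agent.Nodes.RGDChev Cfsg.Agent.KFacts.RgdChevCoord
open Cfsg.Agent.Nodes.RGDTwGen Cfsg.Agent.Nodes.RGDFold Cfsg.Agent.Nodes.RGDTwE6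
open Cfsg.Agent.Nodes.RGDFoldSL (Fx mem_Fx)
open Cfsg.Agent.FixBN.FieldRGD (uu vv dd ww)
open Cfsg.Agent.H162.GaussExcMain (r6 rt6 exists_hom_D w6)
open Cfsg.Agent.H335.Sr
open scoped MatrixGroups

universe u

/-! ### The semisimple elements -/

section

variable {K : Type u} [Field K]

/-- the semisimple elements of the centralizer of the block -/
def sv (u w : Kˣ) : Fin 6 → Kˣ :=
  ![u * (u * w), (u * w) ^ 2, (u * w) ^ 3, (u * w) ^ 4, (u * w) ^ 3, w * (u * w)]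

/-- the exponent -/
def ee (s : ℕ) : ℤ := chevE6.cartan (0 : Fin 6) s + 2 * chevE6.cartan (1 : Fin 6) s + 3 * chevE6.cartan (2 : Fin 6) s +
  4 * chevE6.cartan (3 : Fin 6) s + 3 * chevE6.cartan (4 : Fin 6) s + chevE6.cartan (5 : Fin 6) s

theorem six_aux {A : Type*} [AddCommGroup A] (u w : A) (a b c d e f : ℤ) :
    a • (u + (u + w)) + b • (2 • (u + w)) + c • (3 • (u + w)) + d • (4 • (u + w)) + e • (3 • (u + w)) +
      f • (w + (u + w)) = (a + (a + 2 * b + 3 * c + 4 * d + 3 * e + f)) • u +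
        (f + (a + 2 * b + 3 * c + 4 * d + 3 * e + f)) • w := by
  module

theorem six_aux' {A : Type*} [CommGroup A] (u w : A) (a b c d e f : ℤ) :
    (u * (u * w)) ^ a * ((u * w) ^ 2) ^ b * ((u * w) ^ 3) ^ c * ((u * w) ^ 4) ^ d * ((u * w) ^ 3) ^ e *
      (w * (u * w)) ^ f = u ^ (a + (a + 2 * b + 3 * c + 4 * d + 3 * e + f)) *
        w ^ (f + (a + 2 * b + 3 * c + 4 * d + 3 * e + f)) :=
  six_aux (A := Additive A) (Additive.ofMul u) (Additive.ofMul w) a b c d e f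

theorem prod_sv (u w : Kˣ) (s : ℕ) : ∏ k : Fin 6, ((sv u w k : Kˣ) : K) ^ chevE6.cartan k s =
    ((u ^ (chevE6.cartan (0 : Fin 6) s + ee s) * w ^ (chevE6.cartan (5 : Fin 6) s + ee s) : Kˣ) : K) := by
  have h := six_aux' u w (chevE6.cartan (0 : Fin 6) s) (chevE6.cartan (1 : Fin 6) s) (chevE6.cartan (2 : Fin 6) s)
    (chevE6.cartan (3 : Fin 6) s) (chevE6.cartan (4 : Fin 6) s) (chevE6.cartan (5 : Fin 6) s)
  rw [ee, ← h, Fin.prod_univ_six]
  simp only [Units.val_mul, Units.val_zpow_eq_zpow_val]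
  rfl

theorem tab_out : ∀ s : Fin 72, (∃ k : Fin 6, (k ≠ 1 ∧ k ≠ 3) ∧ vec chevE6 6 s k ≠ 0) →
    (chevE6.cartan (1 : Fin 6) s = 0 ∧
      (chevE6.cartan (0 : Fin 6) s + ee s, chevE6.cartan (5 : Fin 6) s + ee s) ∈
        ([(1, -1), (-1, 1), (1, 2), (-1, -2), (2, 1), (-2, -1)] : List (ℤ × ℤ))) ∨
    ((chevE6.cartan (1 : Fin 6) s = 0 ∨ chevE6.cartan (1 : Fin 6) s = 1 ∨ chevE6.cartan (1 : Fin 6) s = -1) ∧
      ((chevE6.cartan (0 : Fin 6) s + ee s, chevE6.cartan (5 : Fin 6) s + ee s) ∈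
        ([(1, 1), (-1, -1), (2, 2), (-2, -2)] : List (ℤ × ℤ)) ∨
      (chevE6.cartan (0 : Fin 6) s + ee s, chevE6.cartan (5 : Fin 6) s + ee s) ∈
        ([(1, 0), (-1, 0), (0, 1), (0, -1), (2, 0), (-2, 0), (0, 2), (0, -2)] : List (ℤ × ℤ)))) := by
  decide +kernel

theorem tab_in : ∀ a b : Fin 3, a ≠ b → chevE6.cartan (0 : Fin 6) (r6 a b) + ee (r6 a b) = 0 ∧
    chevE6.cartan (5 : Fin 6) (r6 a b) + ee (r6 a b) = 0 := by
  decide +kernel

/-- the numbers -/
structure Nm (q : ℕ) (u w β : Kˣ) : Prop where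
  hu : u ^ q = w
  hw : w ^ q = u
  n1 : u * w ≠ 1
  n2 : (u * w) ^ 2 ≠ 1
  d1 : u ≠ w
  d2 : u * w ^ 2 ≠ 1
  d3 : u ^ 2 * w ≠ 1
  b1 : β ^ (q + 1) = 1
  b2 : β ^ 2 ≠ 1

theorem Nm.ne {q : ℕ} {u w β : Kˣ} (h : Nm q u w β) (s : Fin 72)
    (hs : ∃ k : Fin 6, (k ≠ 1 ∧ k ≠ 3) ∧ vec chevE6 6 s k ≠ 0) :
    β ^ chevE6.cartan (1 : Fin 6) s * (u ^ (chevE6.cartan (0 : Fin 6) s + ee s) *
      w ^ (chevE6.cartan (5 : Fin 6) s + ee s)) ≠ 1 := by
  have hn : (u * w) ^ q = u * w := by rw [mul_pow, h.hu, h.hw, mul_comm]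
  have hup : u ^ (q + 1) = u * w := by rw [pow_succ, h.hu, mul_comm]
  have hwp : w ^ (q + 1) = u * w := by rw [pow_succ, h.hw]
  rcases tab_out s hs with ⟨e0, e⟩ | ⟨e0, e | e⟩
  · generalize chevE6.cartan (0 : Fin 6) s + ee s = x at e ⊢
    generalize chevE6.cartan (5 : Fin 6) s + ee s = y at e ⊢
    rw [e0, zpow_zero, one_mul]
    have hd1 := h.d1
    have hd2 := h.d2
    have hd3 := h.d3
    simp only [List.mem_cons, Prod.mk.injEq, List.not_mem_nil, or_false] at e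
    rcases e with ⟨rfl, rfl⟩ | ⟨rfl, rfl⟩ | ⟨rfl, rfl⟩ | ⟨rfl, rfl⟩ | ⟨rfl, rfl⟩ | ⟨rfl, rfl⟩
    · rw [zpow_one, zpow_neg_one, ne_eq, mul_inv_eq_one]; exact hd1
    · rw [zpow_one, zpow_neg_one, ne_eq, inv_mul_eq_one]; exact hd1
    · rw [zpow_one]; exact hd2
    · rw [zpow_neg_one, zpow_neg, ← mul_inv, ne_eq, inv_eq_one]; exact hd2
    · rw [zpow_one]; exact hd3
    · rw [zpow_neg_one, zpow_neg, ← mul_inv, ne_eq, inv_eq_one]; exact hd3
  · have hm : ∃ m : ℤ, (m = 1 ∨ m = -1 ∨ m = 2 ∨ m = -2) ∧ u ^ (chevE6.cartan (0 : Fin 6) s + ee s) *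
        w ^ (chevE6.cartan (5 : Fin 6) s + ee s) = (u * w) ^ m := by
      generalize chevE6.cartan (0 : Fin 6) s + ee s = x at e ⊢
      generalize chevE6.cartan (5 : Fin 6) s + ee s = y at e ⊢
      simp only [List.mem_cons, Prod.mk.injEq, List.not_mem_nil, or_false] at e
      rcases e with ⟨rfl, rfl⟩ | ⟨rfl, rfl⟩ | ⟨rfl, rfl⟩ | ⟨rfl, rfl⟩
      · exact ⟨1, by simp, (mul_zpow u w 1).symm⟩
      · exact ⟨-1, by simp, (mul_zpow u w (-1)).symm⟩
      · exact ⟨2, by simp, (mul_zpow u w 2).symm⟩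
      · exact ⟨-2, by simp, (mul_zpow u w (-2)).symm⟩
    obtain ⟨m, hm, e2⟩ := hm
    rw [e2]
    have hm0 : (u * w) ^ m ≠ 1 := by
      have h2 := h.n2
      rw [← zpow_natCast] at h2
      rcases hm with rfl | rfl | rfl | rfl
      · rw [zpow_one]; exact h.n1
      · rw [zpow_neg_one, ne_eq, inv_eq_one]; exact h.n1
      · exact h2
      · rw [zpow_neg, ne_eq, inv_eq_one]; exact h2
    have hmq : ((u * w) ^ m) ^ q = (u * w) ^ m := by
      rw [← zpow_natCast, ← zpow_mul, mul_comm m, zpow_mul, zpow_natCast, hn]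
    have hβ : β ^ q = β⁻¹ := by
      rw [eq_inv_iff_mul_eq_one, ← pow_succ]
      exact h.b1
    intro h0
    rcases e0 with e0 | e0 | e0
    · rw [e0, zpow_zero, one_mul] at h0
      exact hm0 h0
    · rw [e0, zpow_one] at h0
      have h1 := congrArg (· ^ q) h0
      simp only [mul_pow, one_pow, hmq, hβ] at h1
      apply h.b2
      calc β ^ 2 = (β * (u * w) ^ m) * (β⁻¹ * (u * w) ^ m)⁻¹ := by
            rw [mul_inv, inv_inv, pow_two]
            calc β * β = β * β * ((u * w) ^ m * ((u * w) ^ m)⁻¹) := by rw [mul_inv_cancel, mul_one]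
              _ = _ := by ac_rfl
        _ = 1 := by rw [h0, h1, inv_one, mul_one]
    · rw [e0, zpow_neg_one] at h0
      have h1 := congrArg (· ^ q) h0
      simp only [mul_pow, one_pow, hmq, inv_pow, hβ, inv_inv] at h1
      apply h.b2
      calc β ^ 2 = (β * (u * w) ^ m) * (β⁻¹ * (u * w) ^ m)⁻¹ := by
            rw [mul_inv, inv_inv, pow_two]
            calc β * β = β * β * ((u * w) ^ m * ((u * w) ^ m)⁻¹) := by rw [mul_inv_cancel, mul_one]
              _ = _ := by ac_rfl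
        _ = 1 := by rw [h0, h1, inv_one, mul_one]
  · have hc : (β ^ chevE6.cartan (1 : Fin 6) s) ^ (q + 1) = 1 := by
      rw [← zpow_natCast, ← zpow_mul, mul_comm, zpow_mul, zpow_natCast, h.b1, one_zpow]
    have key : ∀ x y : ℤ, (u ^ x * w ^ y) ^ (q + 1) = (u * w) ^ (x + y) := by
      intro x y
      rw [mul_pow, ← zpow_natCast, ← zpow_natCast, ← zpow_mul, ← zpow_mul, mul_comm x, mul_comm y, zpow_mul, zpow_mul,
        zpow_natCast, zpow_natCast, hup, hwp, ← zpow_add]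
    intro h0
    have h1 := congrArg (· ^ (q + 1)) h0
    simp only [mul_pow, one_pow, hc, one_mul] at h1
    rw [← mul_pow, key] at h1
    generalize chevE6.cartan (0 : Fin 6) s + ee s = x at e h1
    generalize chevE6.cartan (5 : Fin 6) s + ee s = y at e h1
    have h2 := h.n2
    rw [← zpow_natCast] at h2
    have h3 := h.n1
    simp only [List.mem_cons, Prod.mk.injEq, List.not_mem_nil, or_false] at e
    rcases e with ⟨rfl, rfl⟩ | ⟨rfl, rfl⟩ | ⟨rfl, rfl⟩ | ⟨rfl, rfl⟩ | ⟨rfl, rfl⟩ | ⟨rfl, rfl⟩ | ⟨rfl, rfl⟩ | ⟨rfl, rfl⟩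
    · rw [add_zero, zpow_one] at h1; exact h3 h1
    · rw [add_zero, zpow_neg_one, inv_eq_one] at h1; exact h3 h1
    · rw [zero_add, zpow_one] at h1; exact h3 h1
    · rw [zero_add, zpow_neg_one, inv_eq_one] at h1; exact h3 h1
    · rw [add_zero] at h1; exact h2 h1
    · rw [add_zero, zpow_neg, inv_eq_one] at h1; exact h2 h1
    · rw [zero_add] at h1; exact h2 h1
    · rw [zero_add, zpow_neg, inv_eq_one] at h1; exact h2 h1

/-- **No fixed points in `E₆(K)`.** -/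
theorem nfB [Finite K] {P : Matrix.SpecialLinearGroup (Fin 3) K →* ↥(chevE6.group K)}
    (hP : ∀ a b (hab : a ≠ b) c, P (Matrix.SpecialLinearGroup.transvection hab c) =
      xc RGDTwE6.hp (vec chevE6 6 (r6 a b)) (((1 : ℤ) : K) * c)) {q : ℕ} {u w β : Kˣ} (h : Nm q u w β)
    {X Q : Matrix.SpecialLinearGroup (Fin 3) K} (hX : X = Q * dg3 1 β * Q⁻¹) :
    NF (VJ CoxeterMatrix.E₆.toCoxeterSystem RGDTwE6.hp.isCartan (XX chevE6 6 K) JA) (th RGDTwE6.hp (sv u w) * P X) ∧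
      NF (VNJ CoxeterMatrix.E₆.toCoxeterSystem RGDTwE6.hp.isCartan (XX chevE6 6 K) JA)
        (th RGDTwE6.hp (sv u w) * P X) := by
  refine nf_block RGDTwE6.hp (ε := 1) (by norm_num) rt6.1 rt6.2.2.2 hP simple_r6.1 simple_r6.2
    (fun a b hab k hk => (tab_blk a b hab).2.2 k (mem_JA hk)) (fun a b hab => ?_) (fun s hs hk => ?_) hX
  · rw [prod_sv, (tab_in a b hab).1, (tab_in a b hab).2, zpow_zero, zpow_zero, mul_one, Units.val_one]
  · obtain ⟨k, hk, hk0⟩ := hk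
    rw [prod_sv, Units.val_one, one_zpow, one_mul]
    intro h0
    refine h.ne ⟨s, hs⟩ ⟨k, mem_JA hk, hk0⟩ (Units.ext ?_)
    rw [mul_comm, Units.val_mul, Units.val_zpow_eq_zpow_val β, Units.val_one]
    exact h0

/-! ### The twisted graph automorphism on the torus -/

theorem sgY_th (φ : K →+* K) (t : Fin 6 → Kˣ) :
    sgY φ (th RGDTwE6.hp t) = th RGDTwE6.hp fun i => Units.map (φ : K →* K) (t (ga i)) := by
  have key : ∀ t : Fin 6 → Kˣ, (sgY φ (th RGDTwE6.hp t) = th RGDTwE6.hp fun i => Units.map (φ : K →* K) (t (ga i))) := by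
    intro t
    rw [← Finset.univ_prod_mulSingle t]
    refine Finset.prod_induction (fun i => Pi.mulSingle i (t i))
      (fun s : Fin 6 → Kˣ => sgY φ (th RGDTwE6.hp s) = th RGDTwE6.hp fun i => Units.map (φ : K →* K) (s (ga i))) ?_ ?_ ?_
    · intro a b ha hb
      have e : (fun i => Units.map (φ : K →* K) ((a * b) (ga i))) =
          (fun i => Units.map (φ : K →* K) (a (ga i))) * fun i => Units.map (φ : K →* K) (b (ga i)) := by
        funext i
        exact map_mul _ _ _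
      rw [map_mul, map_mul, ha, hb, e, map_mul]
    · have e : (fun i : Fin 6 => Units.map (φ : K →* K) ((1 : Fin 6 → Kˣ) (ga i))) = 1 := by
        funext i
        exact map_one _
      rw [map_one, map_one, e, map_one]
    · intro i _
      have e : (fun j : Fin 6 => Units.map (φ : K →* K) ((Pi.mulSingle i (t i) : Fin 6 → Kˣ) (ga j))) =
          Pi.mulSingle (ga i) (Units.map (φ : K →* K) (t i)) := by
        funext j
        by_cases hj : ga j = i
        · subst hj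
          rw [Pi.mulSingle_eq_same, ga_ga, Pi.mulSingle_eq_same]
        · rw [Pi.mulSingle_eq_of_ne hj, Pi.mulSingle_eq_of_ne, map_one]
          rintro rfl
          exact hj (ga_ga i)
      rw [e, th_mulSingle, th_mulSingle, sgY_sl]
      congr 1
      apply Subtype.ext
      change (!![((t i : Kˣ) : K), 0; 0, ((t i : Kˣ) : K)⁻¹]).map φ = !![φ (t i), 0; 0, (φ (t i))⁻¹]
      ext a b
      fin_cases a <;> fin_cases b <;> simp
  exact key t

theorem sgY_sv {φ : K →+* K} {u w : Kˣ} (h1 : φ u = w) (h2 : φ w = u) :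
    sgY φ (th RGDTwE6.hp (sv u w)) = th RGDTwE6.hp (sv u w) := by
  have e1 : Units.map (φ : K →* K) u = w := Units.ext h1
  have e2 : Units.map (φ : K →* K) w = u := Units.ext h2
  rw [sgY_th]
  congr 1
  funext i
  fin_cases i
  · change Units.map (φ : K →* K) (w * (u * w)) = u * (u * w)
    rw [map_mul, map_mul, e1, e2, mul_comm w u]
  · change Units.map (φ : K →* K) ((u * w) ^ 2) = (u * w) ^ 2
    rw [map_pow, map_mul, e1, e2, mul_comm w u]
  · change Units.map (φ : K →* K) ((u * w) ^ 3) = (u * w) ^ 3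
    rw [map_pow, map_mul, e1, e2, mul_comm w u]
  · change Units.map (φ : K →* K) ((u * w) ^ 4) = (u * w) ^ 4
    rw [map_pow, map_mul, e1, e2, mul_comm w u]
  · change Units.map (φ : K →* K) ((u * w) ^ 3) = (u * w) ^ 3
    rw [map_pow, map_mul, e1, e2, mul_comm w u]
  · change Units.map (φ : K →* K) (u * (u * w)) = w * (u * w)
    rw [map_mul, map_mul, e1, e2, mul_comm w u]

end

/-! ### The numbers -/

theorem exists_nm {K : Type u} [Field K] [Fintype K] {q : ℕ} (hq : 4 ≤ q) (hK : Fintype.card K = q ^ 2) :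
    ∃ u w β : Kˣ, Nm q u w β := by
  classical
  obtain ⟨t, ht⟩ := IsCyclic.exists_ofOrder_eq_natCard (α := Kˣ)
  have h2 : Nat.card Kˣ = q ^ 2 - 1 := by
    rw [Nat.card_eq_fintype_card, Fintype.card_units, hK]
  rw [h2] at ht
  obtain ⟨m, rfl⟩ : ∃ m, q = m + 4 := ⟨q - 4, by omega⟩
  have h3 : (m + 4) ^ 2 - 1 = m ^ 2 + 8 * m + 15 := by
    have : (m + 4) ^ 2 = m ^ 2 + 8 * m + 15 + 1 := by ring
    rw [this]; rfl
  rw [h3] at ht
  have key : ∀ k : ℕ, 0 < k → k < m ^ 2 + 8 * m + 15 → t ^ k ≠ 1 := by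
    intro k hk hk2 h
    have := Nat.le_of_dvd hk (orderOf_dvd_of_pow_eq_one h)
    omega
  have hone : ∀ k : ℕ, t ^ (k * (m ^ 2 + 8 * m + 15)) = 1 := by
    intro k
    rw [mul_comm, pow_mul, ← ht, pow_orderOf_eq_one, one_pow]
  refine ⟨t, t ^ (m + 4), t ^ (m + 3), ⟨rfl, ?_, ?_, ?_, ?_, ?_, ?_, ?_, ?_⟩⟩
  · rw [← pow_mul, show (m + 4) * (m + 4) = 1 * (m ^ 2 + 8 * m + 15) + 1 by ring, pow_add, hone, one_mul, pow_one]
  · rw [← pow_succ']
    exact key _ (by omega) (by nlinarith)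
  · rw [← pow_succ', ← pow_mul]
    exact key _ (by omega) (by nlinarith)
  · intro h
    have h4 : t ^ (m + 3) = 1 := by
      have h5 : t * t ^ (m + 3) = t * 1 := by rw [← pow_succ', mul_one]; exact h.symm
      exact mul_left_cancel h5
    exact key _ (by omega) (by nlinarith) h4
  · rw [← pow_mul, ← pow_succ']
    exact key _ (by omega) (by nlinarith)
  · rw [← pow_add]
    exact key _ (by omega) (by nlinarith)
  · rw [← pow_mul, show (m + 3) * (m + 4 + 1) = 1 * (m ^ 2 + 8 * m + 15) by ring, hone]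
  · rw [← pow_mul]
    exact key _ (by omega) (by nlinarith)

end Cfsg.Agent.H928.TC.TwBig
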