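import Cfsg.Agent.H928.TC.Sl3
import Cfsg.Agent.H928.Ore.TwFin
import Cfsg.Agent.H928.War.Rgd
import Cfsg.Agent.H126.M3.Mat

/-!
`²E₆(2)`, `²E₆(3)`: two fixed classes (S4173). The elements `s f(X)`, `s f(X⁻¹)` are conjugate.
-/

set_option autoImplicit false
set_option linter.unusedSectionVars false

namespace Cfsg.Agent.H928.TC.TwSmall

open CoxeterSystem Cfsg.Agent.ChevalleyStructure.CoxeterGeom Cfsg.Agent.Tits.Roots Cfsg.Agent.Tits.Core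
  Cfsg.Agent.Nodes Cfsg.Agent.Nodes.Reps Cfsg.Agent.Nodes.BNOf Cfsg.Agent.Nodes.RGDLib Cfsg.Agent.Nodes.Bruhat
  Cfsg.Agent.Nodes.OppDec Cfsg.Agent.Nodes.LeviDec Cfsg.Agent.Nodes.StabComb Cfsg.Agent.Nodes.KindChev
  Cfsg.Agent.Nodes.ChevCls
  Cfsg.Agent.OddHalf.NI.ModelChev
  Cfsg.Agent.H162.GaussDec Cfsg.Agent.H162.GaussLevi Cfsg.Agent.H162.GaussSL Cfsg.Agent.H162.GaussReg
  Cfsg.Agent.H928.Ore.Frame Cfsg.Agent.H928.Ore.Fix Cfsg.Agent.H928.Ore.Block Cfsg.Agent.H928.Ore.TwE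
  Cfsg.Agent.H928.Ore.TwS Cfsg.Agent.H928.Ore.TwF Cfsg.Agent.H928.Ore.TwN Cfsg.Agent.H928.Ore.TwRow
open Cfsg.Lie Cfsg.Agent.ChevalleyStructure Cfsg.Agent.ChevalleyStructure.Elts
  Cfsg.Agent.ChevalleyStructure.NPerm
  Cfsg.Agent.ChevalleyStructure.CoxeterGeomTypes Cfsg.Agent.Nodes.RGDChev Cfsg.Agent.KFacts.RgdChevCoord
open Cfsg.Agent.Nodes.RGDTwGen Cfsg.Agent.Nodes.RGDFold Cfsg.Agent.Nodes.RGDTwE6
open Cfsg.Agent.Nodes.RGDFoldSL (Fx mem_Fx)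
open Cfsg.Agent.H162.GaussExcMain (r6 rt6 exists_hom_D w6)
open Cfsg.Agent.H928.TC.Sl3 (FC)
open scoped MatrixGroups

universe u

/-- **The row `²E₆(q)`**, from one class of irreducible elements of `SL₃(q)` up to inversion. -/
theorem row_fc {K : Type u} [Field K] [Fintype K] {q : ℕ} (hq : IsPrimePow q) (hK : Fintype.card K = q ^ 2)
    (hfc : ∀ φ : K →+* K, (∀ t, φ t = t ^ q) → FC (Fx φ 1)) :
    ∃ a b : ↥(twistedE6 K q), ∀ g : ↥(twistedE6 K q), g ≠ 1 → ∃ x y : ↥(twistedE6 K q),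
      g = (x * a * x⁻¹) * (y * b * y⁻¹) := by
  obtain ⟨φ, hφ, hqq⟩ := TwE6Basic.exists_frob hq hK
  obtain ⟨p, hpc⟩ := CharP.exists K
  have : Fact p.Prime := ⟨(CharP.char_is_prime_or_zero K p).resolve_right (CharP.char_ne_zero_of_finite K p)⟩
  have hfin : Finite (GL chevE6.Idx K) := by
    have : Finite (Matrix chevE6.Idx chevE6.Idx K) := inferInstance
    infer_instance
  have : Finite ↥(twistedE6 K q) := inferInstance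
  have hZ := Cfsg.Agent.Nodes.ChevChart.center_eq_bot (Cfsg.Agent.S1054.result (F := K) chevE6 (by simp))
  have R := RGDTwE6.rgd CoxeterMatrix.F₄.toCoxeterSystem hφ hqq p
  have : Finite CoxeterMatrix.F₄.Group := Cfsg.Agent.Nodes.RGDFold.finite_W (hp := RGDTwE6.hp)
    CoxeterMatrix.F₄.toCoxeterSystem RGDTwE6.isCartan RGDTwE6.foldData
  have hS := Cfsg.Agent.S1070.result hq hK
  have := hS.1
  obtain ⟨P, hP⟩ := exists_hom_D RGDTwE6.hp (K := K) (ε := 1) (by norm_num) rt6.1 rt6.2.1 rt6.2.2.1 rt6.2.2.2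
  obtain ⟨f, hf⟩ := exists_f hφ hqq hP
  obtain ⟨l, hl, h1, h2⟩ := exists_norm_one hφ hq.one_lt hK
  obtain ⟨s, hs⟩ := exists_inc hφ hqq (sgY_s0 hl)
  have hs' : inc K q s⁻¹ = s0 l⁻¹ := by rw [map_inv, hs, s0_inv]
  have h1' : l⁻¹ ≠ 1 := by rwa [ne_eq, inv_eq_one]
  have h2' : l⁻¹ * l⁻¹ ≠ 1 := by
    rw [← mul_inv, ne_eq, inv_eq_one]
    exact h2
  obtain ⟨x₀, hx₀, hfc⟩ := hfc φ hφ
  have hx₀i : Irreducible ((x₀⁻¹ : Matrix.SpecialLinearGroup (Fin 3) (Fx φ 1)) :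
      Matrix (Fin 3) (Fin 3) (Fx φ 1)).charpoly :=
    Cfsg.Agent.H126.M3.irr_inv hx₀ (congrArg Subtype.val (mul_inv_cancel x₀))
  -- the elements with the characteristic polynomial of `x₀` or of its inverse
  have key : ∀ {t : ↥(twistedE6 K q)} {l : Kˣ}, inc K q t = s0 l → ∀ X : Matrix.SpecialLinearGroup (Fin 3) (Fx φ 1),
      ((X : Matrix (Fin 3) (Fin 3) (Fx φ 1)).charpoly = (x₀ : Matrix (Fin 3) (Fin 3) (Fx φ 1)).charpoly ∨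
        (X : Matrix (Fin 3) (Fin 3) (Fx φ 1)).charpoly =
          ((x₀⁻¹ : Matrix.SpecialLinearGroup (Fin 3) (Fx φ 1)) : Matrix (Fin 3) (Fin 3) (Fx φ 1)).charpoly) →
      Irreducible (X : Matrix (Fin 3) (Fin 3) (Fx φ 1)).charpoly ∧ ∃ y, t * f X = y * (t * f x₀) * y⁻¹ := by
    intro t l ht X hX
    have htf := s_comm (φ := φ) hP hf ht
    have hcc : ∀ (g Z : Matrix.SpecialLinearGroup (Fin 3) (Fx φ 1)),
        t * f (g * Z * g⁻¹) = f g * (t * f Z) * (f g)⁻¹ := by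
      intro g Z
      rw [map_mul, map_mul, map_inv]
      calc t * (f g * f Z * (f g)⁻¹) = (t * f g) * f Z * (f g)⁻¹ := by group
        _ = _ := by rw [htf]; group
    rcases hX with hX | hX
    · have hXi : Irreducible (X : Matrix (Fin 3) (Fin 3) (Fx φ 1)).charpoly := by rw [hX]; exact hx₀
      obtain ⟨g, hg⟩ := Cfsg.Agent.H150.MF.exists_conj (Cfsg.Agent.H150.MF.cls_of_irreducible hx₀)
        (Cfsg.Agent.H150.MF.cls_of_irreducible hXi) hX.symm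
      exact ⟨hXi, f g, by rw [hg, hcc]⟩
    · have hXi : Irreducible (X : Matrix (Fin 3) (Fin 3) (Fx φ 1)).charpoly := by rw [hX]; exact hx₀i
      obtain ⟨g, hg⟩ := Cfsg.Agent.H150.MF.exists_conj (Cfsg.Agent.H150.MF.cls_of_irreducible hx₀i)
        (Cfsg.Agent.H150.MF.cls_of_irreducible hXi) hX.symm
      obtain ⟨-, y, hy1, hy2⟩ := s_real hφ hqq hP hf ht hZ hx₀
      refine ⟨hXi, f g * y, ?_⟩
      rw [hg, hcc, map_inv, ← hy2]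
      calc f g * (t * (y * f x₀ * y⁻¹)) * (f g)⁻¹ = f g * ((y * t * y⁻¹) * (y * f x₀ * y⁻¹)) * (f g)⁻¹ := by rw [hy1]
        _ = _ := by group
  -- the pairs
  have hb : ∀ v ∈ UNJ CoxeterMatrix.F₄.toCoxeterSystem RGDTwE6.isCartan (RGDTwE6.X φ q) JR,
      ∀ u ∈ UJ CoxeterMatrix.F₄.toCoxeterSystem RGDTwE6.isCartan (RGDTwE6.X φ q) JR, ∃ c₁ c₂, v * u = c₁ * c₂ ∧
        LP CoxeterMatrix.F₄.toCoxeterSystem RGDTwE6.isCartan (T K q) (RGDTwE6.X φ q) JR c₁ c₂ ∧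
        ((∃ y, c₁ = y * (s * f x₀) * y⁻¹) ∧ ∃ y, c₂ = y * (s⁻¹ * f x₀) * y⁻¹) := by
    intro v hv u hu
    obtain ⟨L, hL, rfl⟩ := lo_f hφ hqq hP hf _ hv
    obtain ⟨U, hU, rfl⟩ := up_f hφ hqq hP hf _ hu
    obtain ⟨X, Y, hXY, hX, hY⟩ := hfc L hL U hU
    have hsT : s ∈ LJ CoxeterMatrix.F₄.toCoxeterSystem RGDTwE6.isCartan (T K q) (RGDTwE6.X φ q) JR :=
      T_le_LJ (s_T hs)
    obtain ⟨hXi, y1, e1⟩ := key hs X hX
    obtain ⟨hYi, y2, e2⟩ := key hs' Y hY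
    refine ⟨s * f X, s⁻¹ * f Y, ?_, ⟨mul_mem hsT (f_LJ hφ hqq hP hf _ X), mul_mem (inv_mem hsT) (f_LJ hφ hqq hP hf _ Y),
      (s_nf hφ hqq hP hf h1 h2 hs _ hXi).2, (s_nf hφ hqq hP hf h1' h2' hs' _ hYi).1⟩, ⟨y1, e1⟩, ⟨y2, e2⟩⟩
    rw [← map_mul, hXY, map_mul, s_comm (φ := φ) hP hf hs]
    group
  refine ⟨s * f x₀, s⁻¹ * f x₀, fun g hg => ?_⟩
  obtain ⟨c₁, c₂, x, y, ⟨⟨x', e1⟩, y', e2⟩, e3⟩ := pair R (RGDTwE6.G1_eq_top CoxeterMatrix.F₄.toCoxeterSystem hφ hqq)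
    (Cfsg.Agent.H958.TS.TwCommon.coordP hφ hqq) (Cfsg.Agent.Nodes.ChevChart.irr_of Cfsg.Agent.Nodes.ChevChart.irrF)
    (Pr := fun c₁ c₂ => (∃ y, c₁ = y * (s * f x₀) * y⁻¹) ∧ ∃ y, c₂ = y * (s⁻¹ * f x₀) * y⁻¹) hb
    (Cfsg.Agent.H928.War.Rgd.core_trivial R hg)
  refine ⟨x * x', y * y', ?_⟩
  rw [e3, e1, e2]
  group

/-- **The rows `²E₆(2)`, `²E₆(3)`.** -/
theorem row_small {K : Type u} [Field K] [Fintype K] {q : ℕ} (hq : q = 2 ∨ q = 3) (hK : Fintype.card K = q ^ 2) :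
    ∃ a b : ↥(twistedE6 K q), ∀ g : ↥(twistedE6 K q), g ≠ 1 → ∃ x y : ↥(twistedE6 K q),
      g = (x * a * x⁻¹) * (y * b * y⁻¹) := by
  have hq' : IsPrimePow q := by
    rcases hq with rfl | rfl
    · exact Nat.prime_two.isPrimePow
    · exact Nat.prime_three.isPrimePow
  refine row_fc hq' hK fun φ hφ => Cfsg.Agent.H928.TC.Sl3.fc_small ?_
  rw [Cfsg.Agent.H928.Ore.TwFin.card_Fx hq'.one_lt hK hφ]
  exact hq

end Cfsg.Agent.H928.TC.TwSmall
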